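import Cfsg.Agent.ChevGrp.Torus
import Cfsg.Agent.ChevTw.TwPerfect

/-!
# Chevalley groups in characteristic two: identities modulo two, checked from the tables (owner: helper52)
-/

set_option autoImplicit false

namespace Cfsg.Agent.InvolFour

open Cfsg.Lie Cfsg.Agent.ChevGrp
open scoped MatrixGroups

/-- The roots and exponents of the commutator terms with odd coefficient. -/
def oddT (D : ChevalleyDatum) (r s : ℕ) : List (ℕ × ℤ × ℕ × ℕ) :=
  (D.commTerms r s).filter fun c => c.2.1 % 2 != 0

/-- The root elements of `r` and `s` commute in characteristic two. -/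
def comB (D : ChevalleyDatum) (r s : ℕ) : Bool :=
  r == s || (s != D.neg r && (oddT D r s).isEmpty)

/-- All commutator terms of two roots in `R` lie in `N`. -/
def intoB (D : ChevalleyDatum) (R N : List ℕ) : Bool :=
  R.all fun r => R.all fun s => r == s || (D.commTerms r s).all fun c => N.contains c.1

/-- The pairing with the coroot of `b`. -/
def pairing (D : ChevalleyDatum) (b s : ℕ) : ℤ :=
  ((List.range D.rank).map fun j => (D.coroot.getD b #[]).getD j 0 * D.cartan j s).sum

/-- The set of entries of a list. -/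
def ls (L : List ℕ) : Set ℕ := {r | r ∈ L}

variable {D : ChevalleyDatum} {F : Type*} [Field F] [CharP F 2] {len : ℕ → ℕ}
  (hS : Rules D F) (hR : RootTable D len)

theorem intCast_of_even {m : ℤ} (h : m % 2 = 0) : (m : F) = 0 := by
  rw [CharP.intCast_eq_zero_iff F 2]
  omega

theorem intCast_of_odd {m : ℤ} (h : m % 2 ≠ 0) : (m : F) = 1 := by
  have e : m = 2 * (m / 2) + 1 := by omega
  rw [e]
  push_cast
  rw [show (2 : F) = 0 from CharTwo.two_eq_zero, zero_mul, zero_add]

include hS in
theorem x_self {r : ℕ} (hr : r < D.nroots) (t : F) : xGL D F r t * xGL D F r t = 1 := by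
  have h1 := (glSys hS).x_add r hr t t
  rw [CharTwo.add_self_eq_zero, (glSys hS).x_zero hr] at h1
  exact h1

include hS in
theorem x_inv {r : ℕ} (hr : r < D.nroots) (t : F) : (xGL D F r t)⁻¹ = xGL D F r t :=
  inv_eq_of_mul_eq_one_right (x_self hS hr t)

/-- The product of the odd commutator terms. -/
noncomputable def oddW (r s : ℕ) (t u : F) : GL D.Idx F :=
  ((oddT D r s).map fun c => xGL D F c.1 (t ^ c.2.2.1 * u ^ c.2.2.2)).prod

include hS hR in
theorem word_eq_oddW {r s : ℕ} (hr : r < D.nroots) (hs : s < D.nroots) (h1 : s ≠ r) (h2 : s ≠ D.neg r)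
    (t u : F) : ((D.commWord F r s t u).map fun p => xGL D F p.1 p.2).prod = oddW r s t u := by
  have hk : ∀ c ∈ D.commTerms r s, c.1 < D.nroots := fun c hc =>
    (hR.commTerms_vec r hr s hs h1 h2 c hc).1
  rw [oddW, oddT, ChevalleyDatum.commWord]
  generalize D.commTerms r s = L at hk ⊢
  simp only [CharTwo.neg_eq]
  induction L with
  | nil => rfl
  | cons c L ih =>
    have ih' := ih fun c hc => hk c (List.mem_cons_of_mem _ hc)
    simp only [List.map_cons, List.prod_cons]
    by_cases hc : c.2.1 % 2 = 0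
    · rw [List.filter_cons_of_neg (by simp [hc]), intCast_of_even hc, zero_mul, zero_mul]
      have h0 := (glSys hS).x_zero (hk c List.mem_cons_self)
      rw [show xGL D F c.1 0 = 1 from h0, one_mul, ih']
    · rw [List.filter_cons_of_pos (by simpa using hc), intCast_of_odd hc, one_mul,
        List.map_cons, List.prod_cons, ih']

include hS hR in
/-- Conjugation of one root element by another. -/
theorem x_conj {s j : ℕ} (hs : s < D.nroots) (hj : j < D.nroots) (h1 : j ≠ s) (h2 : j ≠ D.neg s) (t u : F) :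
    xGL D F s t * xGL D F j u * xGL D F s t = xGL D F j u * oddW s j t u := by
  have e : xGL D F j u * xGL D F s t = xGL D F s t * xGL D F j u *
      ((D.commWord F s j t u).map fun p => xGL D F p.1 p.2).prod := (glSys hS).comm s hs j hj h1 h2 t u
  rw [mul_assoc, e, ← mul_assoc, ← mul_assoc, x_self hS hs, one_mul, word_eq_oddW hS hR hs hj h1 h2]

include hS hR in
theorem commute_x {r s : ℕ} (hr : r < D.nroots) (hs : s < D.nroots) (h : comB D r s = true) (t u : F) :
    Commute (xGL D F r t) (xGL D F s u) := by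
  by_cases e : s = r
  · subst e
    show (glSys hS).x s t * (glSys hS).x s u = (glSys hS).x s u * (glSys hS).x s t
    rw [(glSys hS).x_add s hr, (glSys hS).x_add s hr, add_comm]
  · simp only [comB, Bool.or_eq_true, beq_iff_eq, Ne.symm e, Bool.and_eq_true, bne_iff_ne,
      List.isEmpty_iff, false_or] at h
    have e1 := x_conj hS hR hr hs e h.1 t u
    rw [oddW, h.2, List.map_nil, List.prod_nil, mul_one] at e1
    have e2 := congrArg (xGL D F r t * ·) e1
    simp only [← mul_assoc, x_self hS hr, one_mul] at e2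
    exact e2.symm

theorem intoB_spec {R N : List ℕ} (h : intoB D R N = true) :
    ∀ r ∈ ls R, ∀ s ∈ ls R, s ≠ r → ∀ c ∈ D.commTerms r s, c.1 ∈ ls N := by
  intro r hr s hs hne c hc
  simp only [intoB, List.all_eq_true, Bool.or_eq_true, beq_iff_eq, List.contains_iff_mem] at h
  exact ((h r hr s hs).resolve_left (Ne.symm hne)) c hc

include hR in
theorem closed_of_subset {R : List ℕ} (hpos : ∀ r ∈ R, D.IsPosRoot r) (h : intoB D R R = true) :
    UClosed D len (htHom D) (ls R) :=
  hR.posSet_closed.subset_closed (fun r hr => hpos r hr) (intoB_spec h)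

theorem enum_ls {L : List ℕ} (h : L.Nodup) : Enum (ls L) L := ⟨h, fun _ => Iff.rfl⟩

/-- The element attached to a list of roots. -/
noncomputable def E (F : Type*) [Field F] (A : List ℕ) : GL D.Idx F := (A.map fun a => xGL D F a 1).prod

include hS in
theorem x_mem_group {r : ℕ} (hr : r < D.nroots) (t : F) : xGL D F r t ∈ D.group F := by
  rw [group_eq hS]
  exact Subgroup.subset_closure ⟨r, hr, t, rfl⟩

include hS in
theorem US_le_group {T : Set ℕ} (hT : ∀ r ∈ T, r < D.nroots) : (glSys hS).US T ≤ D.group F := by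
  rw [Sys.US, Subgroup.closure_le]
  rintro _ ⟨r, hr, t, rfl⟩
  exact x_mem_group hS (hT r hr) t

include hS hR in
/-- Everything commuting with the roots in `R` centralises their group. -/
theorem commute_US {R : Set ℕ} (hlt : ∀ r ∈ R, r < D.nroots) {a : ℕ} (ha : a < D.nroots)
    (h : ∀ r ∈ R, comB D a r = true) (t : F) {g : GL D.Idx F} (hg : g ∈ (glSys hS).US R) :
    Commute (xGL D F a t) g := by
  refine Subgroup.closure_induction ?_ (Commute.one_right _) (fun _ _ _ _ h1 h2 => h1.mul_right h2)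
    (fun _ _ h1 => h1.inv_right) hg
  rintro _ ⟨r, hr, u, rfl⟩
  exact commute_x hS hR ha (hlt r hr) (h r hr) t u

include hS hR in
theorem commute_E {R : Set ℕ} (hlt : ∀ r ∈ R, r < D.nroots) {A : List ℕ}
    (ha : ∀ a ∈ A, a < D.nroots ∧ ∀ r ∈ R, comB D a r = true) {g : GL D.Idx F}
    (hg : g ∈ (glSys hS).US R) : Commute (E F A) g := by
  refine Commute.list_prod_left _ _ fun z hz => ?_
  obtain ⟨a, hm, rfl⟩ := List.mem_map.1 hz
  exact commute_US hS hR hlt (ha a hm).1 (ha a hm).2 1 hg

include hS hR in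
theorem nI_conj (i : Fin D.rank) {s : ℕ} (hs : s < D.nroots) (t : F) :
    (glSys hS).nI i * xGL D F s t * ((glSys hS).nI i)⁻¹ = xGL D F (D.reflectRoot i s) t := by
  have h := (glSys hS).conj_all hS hR i ((glSys hS).nEl_mem_rankOne i 1) (Or.inr rfl)
    (fun s => (hS.eta i s : F)) (fun s hs t => (glSys hS).θ_nI_conj hS hR i hs t) s hs t
  have e : (hS.eta i s : F) = 1 := intCast_of_odd (by rcases hS.eta_sq i hs with e | e <;> omega)
  rw [e, one_mul] at h
  exact h

include hS hR in
theorem nW_conj (w : List (Fin D.rank)) {s : ℕ} (hs : s < D.nroots) (t : F) :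
    (glSys hS).nW w * xGL D F s t * ((glSys hS).nW w)⁻¹ = xGL D F (act D w s) t := by
  induction w with
  | nil => simp [Sys.nW_nil, act_nil]
  | cons i w ih =>
    rw [Sys.nW_cons, mul_inv_rev, act_cons, ← nI_conj hS hR i (hR.act_lt w hs), ← ih]
    simp only [mul_assoc]

include hS hR in
theorem nW_mem_group (w : List (Fin D.rank)) : (glSys hS).nW w ∈ D.group F := by
  refine list_prod_mem fun g hg => ?_
  obtain ⟨i, -, rfl⟩ := List.mem_map.1 hg
  have hp := hR.simple_lt i i.2
  exact mul_mem (mul_mem (x_mem_group hS hp 1) (x_mem_group hS (hR.neg_lt _ hp) _)) (x_mem_group hS hp 1)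

include hS hR in
theorem nW_conj_US (w : List (Fin D.rank)) {T T' : Set ℕ} (hT : ∀ r ∈ T, r < D.nroots)
    (h : ∀ r ∈ T, act D w r ∈ T') {g : GL D.Idx F} (hg : g ∈ (glSys hS).US T) :
    (glSys hS).nW w * g * ((glSys hS).nW w)⁻¹ ∈ (glSys hS).US T' := by
  have hle : (glSys hS).US T ≤ ((glSys hS).US T').comap (MulAut.conj ((glSys hS).nW w)).toMonoidHom := by
    conv_lhs => rw [Sys.US]
    rw [Subgroup.closure_le]
    rintro _ ⟨r, hr, t, rfl⟩
    show (glSys hS).nW w * xGL D F r t * ((glSys hS).nW w)⁻¹ ∈ (glSys hS).US T'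
    rw [nW_conj hS hR w (hT r hr)]
    exact (glSys hS).x_mem_US (h r hr) t
  exact hle hg

include hS hR in
/-- A torus element scaling the root `b` and fixing the roots orthogonal to it. -/
theorem exists_scale [Fintype F] {b : ℕ} (hb : pairing D b b = 2) {c : F} (hc : c ≠ 0) :
    ∃ h ∈ D.group F, ∃ e : ℕ → F, e b * c = 1 ∧ (∀ s, pairing D b s = 0 → e s = 1) ∧
      ∀ s < D.nroots, ∀ t : F, h * xGL D F s t * h⁻¹ = xGL D F s (e s * t) := by
  obtain ⟨d, hd⟩ := FiniteField.isSquare_of_char_two (F := F) (ringChar.eq F 2) c⁻¹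
  have hd0 : d ≠ 0 := fun e => inv_ne_zero hc (by rw [hd, e, zero_mul])
  have hM := glSys_HMul hS hR
  let cc : Fin D.rank → Fˣ := fun j => Units.mk0 d hd0 ^ (D.coroot.getD b #[]).getD j.val 0
  have hprod : ∀ s, (∏ j : Fin D.rank, cc j ^ D.cartan j s : Fˣ) = Units.mk0 d hd0 ^ pairing D b s := by
    intro s
    have hsum : pairing D b s = ∑ j : Fin D.rank, (D.coroot.getD b #[]).getD j.val 0 * D.cartan j s := by
      rw [Fin.sum_univ_eq_sum_range (fun j => (D.coroot.getD b #[]).getD j 0 * D.cartan j s) D.rank]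
      rfl
    rw [hsum]
    simp only [cc, ← zpow_mul]
    induction (Finset.univ : Finset (Fin D.rank)) using Finset.induction with
    | empty => simp
    | insert a S ha ih => rw [Finset.prod_insert ha, Finset.sum_insert ha, zpow_add, ih]
  refine ⟨(glSys hS).tau hS hR hM cc, ?_, fun s => ((Units.mk0 d hd0 ^ pairing D b s : Fˣ) : F), ?_, ?_, ?_⟩
  · have h1 : (glSys hS).tau hS hR hM cc ∈ (glSys hS).Hbar :=
      (glSys hS).tau_range hS hR hM ▸ ⟨cc, rfl⟩
    refine (Subgroup.closure_le (K := D.group F)).2 ?_ h1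
    rintro _ ⟨i, u, -, rfl⟩
    have hp := hR.simple_lt i i.2
    have hn : ∀ t : F, (glSys hS).nEl (D.simple i) t ∈ D.group F := fun t =>
      mul_mem (mul_mem (x_mem_group hS hp t) (x_mem_group hS (hR.neg_lt _ hp) _)) (x_mem_group hS hp t)
    exact mul_mem (hn u) (hn (-1))
  · simp only [hb]
    rw [Units.val_zpow_eq_zpow_val, Units.val_mk0, show (2 : ℤ) = ((2 : ℕ) : ℤ) from rfl, zpow_natCast, sq,
      ← hd, inv_mul_cancel₀ hc]
  · intro s hs
    simp [hs]
  · intro s hs t
    simp only [← hprod]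
    exact ChevTw.tau_conj hS hR hM cc hs t

end Cfsg.Agent.InvolFour
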