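import Cfsg.Agent.InvolFour.F4Check
import Cfsg.Agent.InvolFour.F4Rank
import Cfsg.Agent.ReeExp.Unipotent
import Cfsg.Agent.ChevGrp.FieldAut

/-!
# F4(q), q even: four classes of involutions (owner: helper52)

Existence is the verified reduction table; the classes are separated by the rank of `y - 1` and by the rank of
its restriction to the short root ideal of the Lie algebra.
-/

set_option autoImplicit false

namespace Cfsg.Agent.InvolFour.F4

open Cfsg.Lie Cfsg.Agent.ChevGrp
open scoped MatrixGroups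

variable {F : Type*} [Field F] [CharP F 2]

omit [CharP F 2] in
theorem rulesF4 : Rules chevF4 F := Chev.rules_of_mem F (by simp)

set_option maxRecDepth 100000 in
theorem pos_iff : ∀ r < 48, (r ∈ node0.psi ↔ chevF4.IsPosRoot r) := by decide +kernel

set_option maxRecDepth 100000 in
theorem psi_lt : ∀ r ∈ node0.psi, r < 48 := by decide +kernel

theorem posSet_eq_psi : posSet chevF4 = ls node0.psi :=
  Set.ext fun r => ⟨fun h => (pos_iff r h.1).2 h, fun h => (pos_iff r (psi_lt r h)).1 h⟩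

theorem node0_A : E (D := chevF4) F node0.A = 1 := rfl

theorem exists_conj_target [Fintype F] {g : GL chevF4.Idx F} (hg : g ∈ chevF4.group F) (hsq : g * g = 1)
    (hne : g ≠ 1) : Conj F tgts g := by
  classical
  haveI : Fact (Nat.Prime 2) := ⟨Nat.prime_two⟩
  have hS : Rules chevF4 F := rulesF4
  obtain ⟨len, hR⟩ := hS.root
  set U := (chevF4.posUnipotent F).subgroupOf (chevF4.group F)
  have hp : IsPGroup 2 U := fun u => ⟨5, Subtype.ext (Subtype.ext (by
    simpa using ReeExp.pow32_posUnipotent (Subgroup.mem_subgroupOf.1 u.2)))⟩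
  let P : Sylow 2 (chevF4.group F) := hp.toSylow
    (Nat.two_dvd_ne_zero.2 (Nat.odd_iff.1 (Known.ChevFieldInvol.odd_index_posUnipotent hS hR)))
  set x : chevF4.group F := ⟨g, hg⟩
  have hx : IsPGroup 2 (Subgroup.zpowers x) := by
    refine IsPGroup.of_card (n := 1) ?_
    rw [Nat.card_zpowers, pow_one]
    exact orderOf_eq_prime (Subtype.ext (by simp [x, sq, hsq])) fun e => hne (congrArg Subtype.val e)
  obtain ⟨Q, hQ⟩ := hx.exists_le_sylow
  obtain ⟨c, hc⟩ := MulAction.exists_smul_eq (chevF4.group F) Q P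
  have h1 : c * x * c⁻¹ ∈ (P : Subgroup (chevF4.group F)) := by
    rw [← hc, Sylow.coe_subgroup_smul]
    exact ⟨x, hQ (Subgroup.mem_zpowers x), rfl⟩
  have h2 : (c : GL chevF4.Idx F) * g * (c : GL chevF4.Idx F)⁻¹ ∈ (glSys hS).US (ls node0.psi) := by
    have h3 := Subgroup.mem_subgroupOf.1 h1
    rw [posUnipotent_eq hS, Sys.Ubar, posSet_eq_psi] at h3
    exact h3
  refine Conj.of_conj tgts c.2 ?_
  have h4 := allOK_spec hS hR tgts table_ok node0 List.mem_cons_self _ h2
    (by rw [_root_.conj_mul, hsq, mul_one, mul_inv_cancel])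
    (by rw [node0_A, one_mul]; exact fun e => hne (conj_eq_one_iff.1 e))
  rwa [node0_A, one_mul] at h4

/-- The inclusion of the short root ideal. -/
def idealInc : Fin 26 → chevF4.Idx := coord ∘ idealCol

/-- An entry of `x_r(t)` vanishing modulo two. -/
def entryEven (r : ℕ) : chevF4.Idx → chevF4.Idx → Bool
  | Sum.inl i', Sum.inl i => i' != i
  | Sum.inr u, Sum.inl i => u.val != r || (chevF4.cartanSR.getD i.val #[]).getD r 0 % 2 == 0
  | Sum.inl i', Sum.inr s =>
    s.val == r || s.val != chevF4.negIdx.getD r 0 || (chevF4.coroot.getD r #[]).getD i'.val 0 % 2 == 0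
  | Sum.inr u, Sum.inr s =>
    u != s && if s.val == r then u.val != r else if s.val == chevF4.negIdx.getD r 0 then u.val != r
      else (chevF4.chainCoeff r s.val u.val).all fun km => km.2 % 2 == 0

set_option maxHeartbeats 0 in
set_option maxRecDepth 100000 in
theorem ideal_table : ∀ r : Fin 48, ∀ b : Fin 26, ∀ a : chevF4.Idx,
    ((List.finRange 26).any fun c => decide (idealInc c = a)) = true ∨ entryEven r a (idealInc b) = true := by
  decide +kernel

theorem idealInc_inj : Function.Injective idealInc := by decide +kernel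

theorem entry_zero {r : ℕ} (hr : r < 48) {a b : chevF4.Idx} (h : entryEven r a b = true) (t : F) :
    chevF4.x F r t a b = 0 := by
  have hr' : r < chevF4.nroots := hr
  rw [ChevalleyDatum.x, dif_pos hr']
  rcases a with i' | u <;> rcases b with i | s <;>
    simp only [entryEven, bne_iff_ne, Bool.or_eq_true, beq_iff_eq, Bool.and_eq_true] at h
  · simp [ChevalleyDatum.xMat, h]
  · rcases h with (h | h) | h
    · have : s = ⟨r, hr'⟩ := Fin.ext h
      simp [ChevalleyDatum.xMat, this]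
    · by_cases h1 : s = ⟨r, hr'⟩
      · simp [ChevalleyDatum.xMat, h1]
      · simp [ChevalleyDatum.xMat, h1, h, -Array.getD_eq_getD_getElem?]
    · by_cases h1 : s = ⟨r, hr'⟩
      · simp [ChevalleyDatum.xMat, h1]
      · by_cases h2 : (s : ℕ) = chevF4.negIdx.getD r 0
        · simp [ChevalleyDatum.xMat, h1, h2, intCast_of_even h, -Array.getD_eq_getD_getElem?]
        · simp [ChevalleyDatum.xMat, h1, h2, -Array.getD_eq_getD_getElem?]
  · rcases h with h | h
    · simp [ChevalleyDatum.xMat, Fin.ext_iff, h]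
    · simp [ChevalleyDatum.xMat, intCast_of_even h, -Array.getD_eq_getD_getElem?]
  · obtain ⟨hus, h⟩ := h
    by_cases h1 : s = ⟨r, hr'⟩
    · subst h1
      simp at h
      simp [ChevalleyDatum.xMat, Fin.ext_iff, h]
    · have h1' : (s : ℕ) ≠ r := fun e => h1 (Fin.ext e)
      rw [if_neg (by simpa using h1')] at h
      by_cases h2 : (s : ℕ) = chevF4.negIdx.getD r 0
      · rw [if_pos (by simpa using h2), bne_iff_ne] at h
        simp [ChevalleyDatum.xMat, h2, hus, Fin.ext_iff, h1', h, -Array.getD_eq_getD_getElem?]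
        intro _
        rw [← h2]
        exact fun e => hus (Fin.ext e)
      · rw [if_neg (by simpa using h2), List.all_eq_true] at h
        simp only [ChevalleyDatum.xMat, Matrix.of_apply, h1, h2, if_false, hus, zero_add]
        refine List.sum_eq_zero fun z hz => ?_
        obtain ⟨km, hkm, rfl⟩ := List.mem_map.1 hz
        rw [intCast_of_even (by simpa using h km hkm), zero_mul]

/-- `M` preserves the short root ideal. -/
def Pres (M : Matrix chevF4.Idx chevF4.Idx F) : Prop :=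
  ∃ B : Matrix (Fin 26) (Fin 26) F, M * (1 : Matrix chevF4.Idx chevF4.Idx F).submatrix id idealInc =
    (1 : Matrix chevF4.Idx chevF4.Idx F).submatrix id idealInc * B

theorem pres_x {r : ℕ} (hr : r < 48) (t : F) : Pres (chevF4.x F r t) := by
  classical
  refine ⟨(chevF4.x F r t).submatrix idealInc idealInc, ?_⟩
  ext a b
  have e1 : (chevF4.x F r t * (1 : Matrix chevF4.Idx chevF4.Idx F).submatrix id idealInc) a b =
      chevF4.x F r t a (idealInc b) := by simp [Matrix.mul_apply, Matrix.one_apply]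
  rw [e1, Matrix.mul_apply]
  simp only [Matrix.submatrix_apply, id, Matrix.one_apply, ite_mul, one_mul, zero_mul]
  by_cases ha : ∃ c, idealInc c = a
  · obtain ⟨c, rfl⟩ := ha
    rw [Finset.sum_eq_single c (fun c' _ hc => if_neg fun e => hc (idealInc_inj e).symm) (by simp), if_pos rfl]
  · rw [Finset.sum_eq_zero fun c _ => if_neg fun e => ha ⟨c, e.symm⟩]
    refine entry_zero hr ?_ t
    have h := ideal_table ⟨r, hr⟩ b a
    simpa [ha] using h

theorem pres_group {g : GL chevF4.Idx F} (hg : g ∈ chevF4.group F) :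
    Pres (g : Matrix chevF4.Idx chevF4.Idx F) ∧ Pres ((g⁻¹ : GL chevF4.Idx F) : Matrix chevF4.Idx chevF4.Idx F) := by
  have hS : Rules chevF4 F := rulesF4
  rw [group_eq hS, Sys.Gbar] at hg
  refine Subgroup.closure_induction ?_ ?_ ?_ ?_ hg
  · rintro _ ⟨r, hr, t, rfl⟩
    refine ⟨?_, ?_⟩
    · show Pres (xGL chevF4 F r t : Matrix chevF4.Idx chevF4.Idx F)
      rw [val_xGL hS]
      exact pres_x hr t
    · rw [(glSys hS).x_inv hr]
      show Pres (xGL chevF4 F r (-t) : Matrix chevF4.Idx chevF4.Idx F)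
      rw [val_xGL hS]
      exact pres_x hr _
  · exact ⟨⟨1, by simp⟩, ⟨1, by simp⟩⟩
  · intro a b _ _ ha hb
    have key : ∀ X Y : Matrix chevF4.Idx chevF4.Idx F, Pres X → Pres Y → Pres (X * Y) := by
      rintro X Y ⟨A, hA⟩ ⟨B, hB⟩
      exact ⟨A * B, by rw [Matrix.mul_assoc, hB, ← Matrix.mul_assoc, hA, Matrix.mul_assoc]⟩
    rw [mul_inv_rev, Units.val_mul, Units.val_mul]
    exact ⟨key _ _ ha.1 hb.1, key _ _ hb.2 ha.2⟩
  · intro a _ ha
    rw [inv_inv]
    exact ⟨ha.2, ha.1⟩

/-- The first invariant. -/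
noncomputable def inv1 (y : GL chevF4.Idx F) : ℕ := ((y : Matrix chevF4.Idx chevF4.Idx F) - 1).rank

/-- The second invariant. -/
noncomputable def inv2 (y : GL chevF4.Idx F) : ℕ :=
  (((y : Matrix chevF4.Idx chevF4.Idx F) - 1).submatrix id idealInc).rank

theorem inv_conj_le {h : GL chevF4.Idx F} (hh : h ∈ chevF4.group F) (y : GL chevF4.Idx F) :
    inv1 (h * y * h⁻¹) ≤ inv1 y ∧ inv2 (h * y * h⁻¹) ≤ inv2 y := by
  classical
  set H : Matrix chevF4.Idx chevF4.Idx F := (h : Matrix chevF4.Idx chevF4.Idx F)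
  set H' : Matrix chevF4.Idx chevF4.Idx F := ((h⁻¹ : GL chevF4.Idx F) : Matrix chevF4.Idx chevF4.Idx F)
  set N : Matrix chevF4.Idx chevF4.Idx F := (y : Matrix chevF4.Idx chevF4.Idx F) - 1
  have e : ((h * y * h⁻¹ : GL chevF4.Idx F) : Matrix chevF4.Idx chevF4.Idx F) - 1 = H * N * H' := by
    have hH : H * H' = 1 := by simp [H, H']
    simp [H, H', N, mul_sub, sub_mul]
  have hP : ∀ M : Matrix chevF4.Idx chevF4.Idx F, M.submatrix id idealInc =
      M * (1 : Matrix chevF4.Idx chevF4.Idx F).submatrix id idealInc := fun M => by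
    ext a b
    simp [Matrix.mul_apply, Matrix.one_apply]
  refine ⟨?_, ?_⟩
  · rw [inv1, e]
    exact (Matrix.rank_mul_le_left _ _).trans (Matrix.rank_mul_le_right _ _)
  · obtain ⟨B, hB⟩ := (pres_group hh).2
    rw [inv2, e, hP, Matrix.mul_assoc, hB, ← Matrix.mul_assoc, inv2, hP N, Matrix.mul_assoc H]
    exact (Matrix.rank_mul_le_left _ _).trans (Matrix.rank_mul_le_right _ _)

theorem inv_conj {h : GL chevF4.Idx F} (hh : h ∈ chevF4.group F) {y z : GL chevF4.Idx F}
    (e : h * y * h⁻¹ = z) : inv1 y = inv1 z ∧ inv2 y = inv2 z := by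
  have h1 := inv_conj_le hh y
  have h2 := inv_conj_le (inv_mem hh) z
  rw [e] at h1
  rw [← e, show h⁻¹ * (h * y * h⁻¹) * h⁻¹⁻¹ = y by simp [mul_assoc], e] at h2
  exact ⟨le_antisymm h2.1 h1.1, le_antisymm h2.2 h1.2⟩

/-- The map from the field with two elements. -/
def prime (F : Type*) [Field F] [CharP F 2] : ZMod 2 →+* F := ZMod.castHom (dvd_refl 2) F

theorem rank_inv {M : Matrix chevF4.Idx chevF4.Idx (ZMod 2)} {A : Matrix (Fin 52) (Fin 52) (ZMod 2)}
    (hA : M.submatrix coord coord = A) {y : GL chevF4.Idx F}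
    (hy : (y : Matrix chevF4.Idx chevF4.Idx F) - 1 = M.map (prime F)) :
    inv1 y = (A.map (prime F)).rank ∧ inv2 y = ((A.submatrix id idealCol).map (prime F)).rank := by
  refine ⟨?_, ?_⟩
  · rw [inv1, hy, ← hA, ← Matrix.submatrix_map]
    exact (Matrix.rank_submatrix _ coordEquiv coordEquiv).symm
  · rw [inv2, hy, ← hA, Matrix.submatrix_submatrix, ← Matrix.submatrix_map]
    have e : (M.map (prime F)).submatrix (coord ∘ id) (coord ∘ idealCol) =
        ((M.map (prime F)).submatrix id idealInc).submatrix coordEquiv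
          (Equiv.refl (Fin 26)) := rfl
    rw [e]
    exact (Matrix.rank_submatrix _ _ _).symm

theorem map_x_sub_one (r : ℕ) : (chevF4.x (ZMod 2) r 1 - 1).map (prime F) =
    (xGL chevF4 F r 1 : Matrix chevF4.Idx chevF4.Idx F) - 1 := by
  rw [Matrix.map_sub _ (map_sub _), Matrix.map_one _ (map_zero _) (map_one _), x_map, map_one,
    val_xGL rulesF4]

/-- The invariants of the four representatives. -/
theorem inv_targets :
    (inv1 (E (D := chevF4) F [47]) = 16 ∧ inv2 (E (D := chevF4) F [47]) = 6) ∧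
    (inv1 (E (D := chevF4) F [44]) = 16 ∧ inv2 (E (D := chevF4) F [44]) = 10) ∧
    inv1 (E (D := chevF4) F [47, 44]) = 21 ∧ inv1 (E (D := chevF4) F [39, 45]) = 24 := by
  obtain ⟨ha, hb, hc, hd, ha', hb'⟩ := ranks
  have h1 : ∀ r, ((E (D := chevF4) F [r] : GL chevF4.Idx F) : Matrix chevF4.Idx chevF4.Idx F) - 1 =
      (chevF4.x (ZMod 2) r 1 - 1).map (prime F) := fun r => by simp [E, map_x_sub_one]
  have h2 : ∀ r s, ((E (D := chevF4) F [r, s] : GL chevF4.Idx F) : Matrix chevF4.Idx chevF4.Idx F) - 1 =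
      ((chevF4.x (ZMod 2) r 1 - 1) * (chevF4.x (ZMod 2) s 1 - 1) + (chevF4.x (ZMod 2) r 1 - 1) +
        (chevF4.x (ZMod 2) s 1 - 1)).map (prime F) := fun r s => by
    rw [Matrix.map_add _ (map_add _), Matrix.map_add _ (map_add _), Matrix.map_mul, map_x_sub_one,
      map_x_sub_one]
    simp [E, sub_mul, mul_sub]
  have h3 : ∀ (X Y : Matrix chevF4.Idx chevF4.Idx (ZMod 2)), (X * Y + X + Y).submatrix coord coord =
      X.submatrix coord coord * Y.submatrix coord coord + X.submatrix coord coord + Y.submatrix coord coord := by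
    intro X Y
    show (X * Y).submatrix coord coord + X.submatrix coord coord + Y.submatrix coord coord = _
    rw [Matrix.submatrix_mul X Y coord coord coord coordEquiv.bijective]
  refine ⟨⟨?_, ?_⟩, ⟨?_, ?_⟩, ?_, ?_⟩
  · rw [(rank_inv long_entries (h1 47)).1, RankCert.rank_eq ha]; rfl
  · rw [(rank_inv long_entries (h1 47)).2, RankCert.rank_eq ha']; rfl
  · rw [(rank_inv short_entries (h1 44)).1, RankCert.rank_eq hb]; rfl
  · rw [(rank_inv short_entries (h1 44)).2, RankCert.rank_eq hb']; rfl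
  · rw [(rank_inv (A := bm cN 52 52) ((h3 _ _).trans (by rw [long_entries, short_entries]; exact c_entries)) (h2 47 44)).1,
      RankCert.rank_eq hc]
    rfl
  · rw [(rank_inv (A := bm dN 52 52) ((h3 _ _).trans (by rw [midShort_entries, midLong_entries]; exact d_entries)) (h2 39 45)).1,
      RankCert.rank_eq hd]
    rfl

set_option maxRecDepth 100000 in
theorem tgts_table : ∀ T ∈ tgts, commAll chevF4 T = true ∧ commAll chevF4 (T ++ T) = true ∧ nrm (T ++ T) = [] := by
  decide +kernel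

theorem target_order {T : List ℕ} (hT : T ∈ tgts) :
    E (D := chevF4) F T ∈ chevF4.group F ∧ orderOf (E (D := chevF4) F T) = 2 := by
  have hS : Rules chevF4 F := rulesF4
  obtain ⟨len, hR⟩ := hS.root
  obtain ⟨h1, h2, h3⟩ := tgts_table T hT
  refine ⟨E_mem_group hS fun a ha => (commAll_spec h1 a ha).1, orderOf_eq_prime ?_ ?_⟩
  · rw [sq, ← E_append, ← E_nrm hS hR h2, h3]
    rfl
  · intro e
    have h0 : inv1 (1 : GL chevF4.Idx F) = 0 := by simp [inv1]
    obtain ⟨⟨a, -⟩, ⟨b, -⟩, c, d⟩ := inv_targets (F := F)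
    simp only [tgts, List.mem_cons, List.not_mem_nil, or_false] at hT
    rcases hT with rfl | rfl | rfl | rfl
    · rw [e] at a; omega
    · rw [e] at b; omega
    · rw [e] at c; omega
    · rw [e] at d; omega

theorem target_eq {T₁ T₂ : List ℕ} (h₁ : T₁ ∈ tgts) (h₂ : T₂ ∈ tgts) {h : GL chevF4.Idx F}
    (hh : h ∈ chevF4.group F) (e : h * E F T₁ * h⁻¹ = E F T₂) : T₁ = T₂ := by
  obtain ⟨e1, e2⟩ := inv_conj hh e
  obtain ⟨⟨a, a'⟩, ⟨b, b'⟩, c, d⟩ := inv_targets (F := F)
  simp only [tgts, List.mem_cons, List.not_mem_nil, or_false] at h₁ h₂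
  rcases h₁ with rfl | rfl | rfl | rfl <;> rcases h₂ with rfl | rfl | rfl | rfl <;> first | rfl | omega

/-- The list in the statement. -/
theorem list_eq : [chevF4.x F 47 1, chevF4.x F 44 1, chevF4.x F 47 1 * chevF4.x F 44 1,
    chevF4.x F 39 1 * chevF4.x F 45 1] =
      tgts.map fun T => ((E (D := chevF4) F T : GL chevF4.Idx F) : Matrix chevF4.Idx chevF4.Idx F) := by
  simp [tgts, E, val_xGL (rulesF4 (F := F))]

/-- The classes of involutions. -/
theorem classes [Fintype F] {L : List (Matrix chevF4.Idx chevF4.Idx F)}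
    (hL : L = tgts.map fun T => ((E (D := chevF4) F T : GL chevF4.Idx F) : Matrix chevF4.Idx chevF4.Idx F)) :
    (∀ y : GL chevF4.Idx F, (y : Matrix chevF4.Idx chevF4.Idx F) ∈ L → y ∈ chevF4.group F ∧ orderOf y = 2) ∧
    (∀ g ∈ chevF4.group F, orderOf g = 2 → ∃ y ∈ chevF4.group F, (y : Matrix chevF4.Idx chevF4.Idx F) ∈ L ∧
      ∃ h ∈ chevF4.group F, h * g * h⁻¹ = y) ∧
    (∀ y₁ ∈ chevF4.group F, ∀ y₂ ∈ chevF4.group F, (y₁ : Matrix chevF4.Idx chevF4.Idx F) ∈ L →
      (y₂ : Matrix chevF4.Idx chevF4.Idx F) ∈ L → (∃ h ∈ chevF4.group F, h * y₁ * h⁻¹ = y₂) →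
      (y₁ : Matrix chevF4.Idx chevF4.Idx F) = (y₂ : Matrix chevF4.Idx chevF4.Idx F)) := by
  subst hL
  have hm : ∀ y : GL chevF4.Idx F, (y : Matrix chevF4.Idx chevF4.Idx F) ∈
      tgts.map (fun T => ((E (D := chevF4) F T : GL chevF4.Idx F) : Matrix chevF4.Idx chevF4.Idx F)) →
      ∃ T ∈ tgts, y = E F T := fun y hy => by
    obtain ⟨T, hT, e⟩ := List.mem_map.1 hy
    exact ⟨T, hT, Units.ext e.symm⟩
  refine ⟨fun y hy => ?_, fun g hg hord => ?_, ?_⟩
  · obtain ⟨T, hT, rfl⟩ := hm y hy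
    exact target_order hT
  · obtain ⟨T, hT, h, hh, e⟩ := exists_conj_target hg (by rw [← sq, ← hord, pow_orderOf_eq_one])
      (fun e => by simp [e] at hord)
    exact ⟨E F T, (target_order hT).1, List.mem_map.2 ⟨T, hT, rfl⟩, h, hh, e⟩
  · intro y₁ _ y₂ _ h₁ h₂ ⟨h, hh, e⟩
    obtain ⟨T₁, hT₁, rfl⟩ := hm y₁ h₁
    obtain ⟨T₂, hT₂, rfl⟩ := hm y₂ h₂
    rw [target_eq hT₁ hT₂ hh e]

end Cfsg.Agent.InvolFour.F4
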