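import Cfsg.Agent.InvolFour.Basic
import Mathlib.Data.List.Sort

/-!
# Conjugations of products of commuting root elements in characteristic two, by computation (owner: helper52)
-/

set_option autoImplicit false

namespace Cfsg.Agent.InvolFour

open Cfsg.Lie Cfsg.Agent.ChevGrp
open scoped MatrixGroups

/-- A conjugation: by a Weyl group representative or by a root element `x_s(1)`. -/
inductive Move (n : ℕ) where
  | weyl (w : List (Fin n))
  | conj (s : ℕ)

/-- Removal of adjacent equal pairs. -/
def cancel : List ℕ → List ℕ
  | [] => []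
  | a :: L =>
    match cancel L with
    | [] => [a]
    | b :: M => if a == b then M else a :: b :: M

/-- The roots of a list are in range and have commuting root elements. -/
def commAll (D : ChevalleyDatum) (L : List ℕ) : Bool :=
  L.all fun a => decide (a < D.nroots) && L.all fun b => comB D a b

/-- The normal form of a product of commuting root elements. -/
def nrm (L : List ℕ) : List ℕ := cancel (L.insertionSort (fun a b => a ≤ b))

/-- One move. -/
def applyMove (D : ChevalleyDatum) (L : List ℕ) : Move D.rank → Option (List ℕ)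
  | .weyl w =>
    if L.all (fun j => decide (j < D.nroots)) && commAll D (L.map (act D w)) then some (nrm (L.map (act D w)))
    else none
  | .conj s =>
    if decide (s < D.nroots) && L.all (fun j => decide (j < D.nroots) && j != D.neg s) &&
        commAll D (L.flatMap fun j => if j == s then [j] else j :: (oddT D s j).map Prod.fst) then
      some (nrm (L.flatMap fun j => if j == s then [j] else j :: (oddT D s j).map Prod.fst))
    else none

/-- A sequence of moves. -/
def applyMoves (D : ChevalleyDatum) : List ℕ → List (Move D.rank) → Option (List ℕ)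
  | L, [] => some L
  | L, m :: ms => match applyMove D L m with
    | none => none
    | some L' => applyMoves D L' ms

/-- The check that the moves take `A` to one of the targets. -/
def fuseOK (D : ChevalleyDatum) (tgts : List (List ℕ)) (A : List ℕ) (ms : List (Move D.rank)) : Bool :=
  commAll D A && match applyMoves D (nrm A) ms with
    | none => false
    | some L => tgts.any fun T => commAll D T && L == nrm T

variable {D : ChevalleyDatum} {F : Type*} [Field F] [CharP F 2] {len : ℕ → ℕ}
  (hS : Rules D F) (hR : RootTable D len)

theorem E_cons (a : ℕ) (L : List ℕ) : E (D := D) F (a :: L) = xGL D F a 1 * E F L := by simp [E]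

theorem E_append (L L' : List ℕ) : E (D := D) F (L ++ L') = E F L * E F L' := by simp [E]

include hS in
theorem E_mem_group {L : List ℕ} (h : ∀ a ∈ L, a < D.nroots) : E (D := D) F L ∈ D.group F := by
  refine list_prod_mem fun z hz => ?_
  obtain ⟨a, ha, rfl⟩ := List.mem_map.1 hz
  exact x_mem_group hS (h a ha) 1

include hS in
theorem E_cancel {L : List ℕ} (h : ∀ a ∈ L, a < D.nroots) :
    E (D := D) F (cancel L) = E F L ∧ ∀ a ∈ cancel L, a ∈ L := by
  induction L with
  | nil => simp [cancel]
  | cons a L ih =>
    obtain ⟨ih1, ih2⟩ := ih fun b hb => h b (List.mem_cons_of_mem _ hb)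
    rw [cancel]
    cases e : cancel L with
    | nil =>
      rw [e] at ih1
      refine ⟨by rw [E_cons, E_cons, ← ih1], fun b hb => ?_⟩
      simp at hb ⊢
      exact Or.inl hb
    | cons b M =>
      rw [e] at ih1 ih2
      dsimp only
      by_cases hab : a = b
      · subst hab
        rw [if_pos (beq_self_eq_true a), E_cons a L, ← ih1, E_cons, ← mul_assoc, x_self hS (h a List.mem_cons_self),
          one_mul]
        exact ⟨rfl, fun c hc => List.mem_cons_of_mem _ (ih2 c (List.mem_cons_of_mem _ hc))⟩
      · rw [if_neg (by simpa using hab), E_cons a L, ← ih1, E_cons]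
        refine ⟨rfl, fun c hc => ?_⟩
        rcases List.mem_cons.1 hc with rfl | hc
        · exact List.mem_cons_self
        · exact List.mem_cons_of_mem _ (ih2 c hc)

theorem commAll_spec {L : List ℕ} (h : commAll D L = true) :
    ∀ a ∈ L, a < D.nroots ∧ ∀ b ∈ L, comB D a b = true := by
  simpa [commAll, List.all_eq_true] using h

include hS hR in
theorem E_nrm {L : List ℕ} (h : commAll D L = true) : E (D := D) F (nrm L) = E F L := by
  have hp : (L.insertionSort (fun a b => a ≤ b)).Perm L := List.perm_insertionSort _ _
  rw [nrm, (E_cancel hS fun a ha => (commAll_spec h a (hp.mem_iff.1 ha)).1).1, E, E]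
  refine (hp.symm.map _).prod_eq' ?_ |>.symm
  refine List.pairwise_of_forall_mem_list fun x hx y hy => ?_
  obtain ⟨a, ha, rfl⟩ := List.mem_map.1 hx
  obtain ⟨b, hb, rfl⟩ := List.mem_map.1 hy
  exact commute_x hS hR (commAll_spec h a ha).1 (commAll_spec h b hb).1 ((commAll_spec h a ha).2 b hb) 1 1

include hS hR in
theorem applyMove_spec {L L' : List ℕ} {m : Move D.rank} (h : applyMove D L m = some L') :
    ∃ g ∈ D.group F, g * E F L * g⁻¹ = E F L' := by
  cases m with
  | weyl w =>
    simp only [applyMove, Option.ite_none_right_eq_some, Bool.and_eq_true, List.all_eq_true,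
      decide_eq_true_eq, Option.some.injEq] at h
    obtain ⟨⟨hlt, hc⟩, rfl⟩ := h
    refine ⟨_, nW_mem_group hS hR w, ?_⟩
    rw [E_nrm hS hR hc]
    clear hc
    induction L with
    | nil => simp [E]
    | cons a L ih =>
      rw [List.map_cons, E_cons, E_cons, ← nW_conj hS hR w (hlt a List.mem_cons_self) 1,
        ← ih fun b hb => hlt b (List.mem_cons_of_mem _ hb)]
      simp [mul_assoc]
  | conj s =>
    simp only [applyMove, Option.ite_none_right_eq_some, Bool.and_eq_true, List.all_eq_true,
      decide_eq_true_eq, bne_iff_ne, Option.some.injEq] at h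
    obtain ⟨⟨⟨hs, hlt⟩, hc⟩, rfl⟩ := h
    refine ⟨_, x_mem_group hS hs 1, ?_⟩
    rw [E_nrm hS hR hc, x_inv hS hs]
    clear hc
    induction L with
    | nil => simp [E, x_self hS hs]
    | cons a L ih =>
      have e : xGL D F s 1 * (xGL D F a 1 * E F L) * xGL D F s 1 =
          (xGL D F s 1 * xGL D F a 1 * xGL D F s 1) * (xGL D F s 1 * E F L * xGL D F s 1) := by
        simp [mul_assoc, ← mul_assoc (xGL D F s 1) (xGL D F s 1), x_self hS hs]
      rw [List.flatMap_cons, E_append, E_cons, e, ih fun b hb => hlt b (List.mem_cons_of_mem _ hb)]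
      congr 1
      obtain ⟨ha, hne⟩ := hlt a List.mem_cons_self
      by_cases has : a = s
      · subst has
        rw [if_pos (beq_self_eq_true a), x_self hS hs, one_mul]
        simp [E]
      · rw [if_neg (by simpa using has), E_cons, x_conj hS hR hs ha has hne]
        simp [oddW, E, List.map_map, Function.comp_def]

include hS hR in
theorem applyMoves_spec {ms : List (Move D.rank)} {L L' : List ℕ} (h : applyMoves D L ms = some L') :
    ∃ g ∈ D.group F, g * E F L * g⁻¹ = E F L' := by
  induction ms generalizing L with
  | nil =>
    simp only [applyMoves, Option.some.injEq] at h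
    exact ⟨1, one_mem _, by simp [h]⟩
  | cons m ms ih =>
    rw [applyMoves] at h
    cases e : applyMove D L m with
    | none => rw [e] at h; simp at h
    | some L1 =>
      rw [e] at h
      obtain ⟨g1, hg1, e1⟩ := applyMove_spec hS hR e
      obtain ⟨g2, hg2, e2⟩ := ih h
      refine ⟨g2 * g1, mul_mem hg2 hg1, ?_⟩
      rw [← e2, ← e1]
      simp [mul_assoc]

include hS hR in
theorem fuseOK_spec {tgts : List (List ℕ)} {A : List ℕ} {ms : List (Move D.rank)}
    (h : fuseOK D tgts A ms = true) : ∃ T ∈ tgts, ∃ g ∈ D.group F, g * E F A * g⁻¹ = E F T := by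
  simp only [fuseOK, Bool.and_eq_true] at h
  obtain ⟨hA, h⟩ := h
  cases e : applyMoves D (nrm A) ms with
  | none => rw [e] at h; simp at h
  | some L =>
    rw [e] at h
    simp only [List.any_eq_true, Bool.and_eq_true, beq_iff_eq] at h
    obtain ⟨T, hT, hc, rfl⟩ := h
    obtain ⟨g, hg, e1⟩ := applyMoves_spec (F := F) hS hR e
    exact ⟨T, hT, g, hg, by rw [← E_nrm hS hR hA, e1, E_nrm hS hR hc]⟩

end Cfsg.Agent.InvolFour
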