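import Cfsg.Agent.InvolFour.Basic

/-!
# One layer of the reduction of an involution with a fundamental root in its support (owner: helper52)

`v = x_b(1) m` with `m` in the layer group: the lower halves of the `b`-strings of `m` vanish, since `v² = 1`,
and the upper halves are removed by conjugation.
-/

set_option autoImplicit false

namespace Cfsg.Agent.InvolFour

open Cfsg.Lie Cfsg.Agent.ChevGrp
open scoped MatrixGroups

/-- A layer: the string pairs (lower, upper root) and the roots left afterwards. -/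
structure Lay where
  pairs : List (ℕ × ℕ)
  next : List ℕ

/-- The roots of a layer. -/
def Lay.all (l : Lay) : List ℕ := l.pairs.map Prod.fst ++ (l.pairs.map Prod.snd ++ l.next)

/-- The table conditions on a layer below `R` for the root `b`. -/
def layOK (D : ChevalleyDatum) (b : ℕ) (R : List ℕ) (l : Lay) : Bool :=
  decide l.all.Nodup && (R.all fun r => l.all.contains r) && (l.all.all fun r => R.contains r) &&
  intoB D l.all l.next && (l.all.all fun r => r != b && r != D.neg b) &&
  (l.next.all fun r => (oddT D b r).all fun c => l.next.contains c.1) &&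
  l.pairs.all fun p => ((oddT D b p.2).all fun c => l.next.contains c.1) &&
    ((oddT D b p.1).filter fun c => !l.next.contains c.1).map (fun c => (c.1, c.2.2.2)) == [(p.2, 1)]

theorem sum_ite_key {α : Type*} [AddMonoid α] (L : List (ℕ × ℕ)) (f : ℕ × ℕ → α) (key : ℕ × ℕ → ℕ)
    (hnd : (L.map key).Nodup) {p : ℕ × ℕ} (hp : p ∈ L) :
    (L.map fun q => if key q = key p then f q else 0).sum = f p := by
  induction L with
  | nil => simp at hp
  | cons q L ih =>
    simp only [List.map_cons, List.nodup_cons, List.mem_map, not_exists, not_and] at hnd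
    simp only [List.map_cons, List.sum_cons]
    rcases List.mem_cons.1 hp with rfl | hp
    · rw [if_pos rfl, List.sum_eq_zero, add_zero]
      intro x hx
      obtain ⟨r, hr, rfl⟩ := List.mem_map.1 hx
      exact if_neg (hnd.1 r hr)
    · rw [if_neg fun e => hnd.1 p hp e.symm, zero_add, ih hnd.2 hp]

variable {D : ChevalleyDatum} {F : Type*} [Field F] [CharP F 2] {len : ℕ → ℕ}
  (hS : Rules D F) (hR : RootTable D len)

include hS hR in
theorem layer_step {b : ℕ} (hb : b < D.nroots) {R : List ℕ} (hpos : ∀ r ∈ R, D.IsPosRoot r) {l : Lay}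
    (hok : layOK D b R l = true) {m : GL D.Idx F} (hm : m ∈ (glSys hS).US (ls R))
    (hsq : xGL D F b 1 * m * (xGL D F b 1 * m) = 1) :
    ∃ g ∈ (glSys hS).US (ls R), ∃ n ∈ (glSys hS).US (ls l.next),
      g * (xGL D F b 1 * m) * g⁻¹ = xGL D F b 1 * n := by
  classical
  simp only [layOK, Bool.and_eq_true, decide_eq_true_eq, List.all_eq_true, List.contains_iff_mem,
    bne_iff_ne, beq_iff_eq] at hok
  obtain ⟨⟨⟨⟨⟨⟨hnd, hRa⟩, haR⟩, hinto⟩, hne⟩, hbn⟩, hpair⟩ := hok
  have hset : ls R = ls l.all := Set.ext fun r => ⟨hRa r, haR r⟩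
  rw [hset] at hm ⊢
  set S := glSys hS
  have hnA : ls l.next ⊆ ls l.all := fun r h => by simp [ls, Lay.all] at h ⊢; tauto
  have hposA : ∀ r ∈ l.all, D.IsPosRoot r := fun r hr => hpos r (haR r hr)
  have hlt : ∀ r ∈ l.all, r < D.nroots := fun r hr => (hposA r hr).1
  have hAc : UClosed D len (htHom D) (ls l.all) :=
    hR.posSet_closed.subset_closed (fun r hr => hposA r hr)
      fun r hr s hs h c hc => hnA (intoB_spec hinto r hr s hs h c hc)
  have hNc : UClosed D len (htHom D) (ls l.next) :=
    hR.posSet_closed.subset_closed (fun r hr => hposA r (hnA hr))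
      fun r hr s hs h c hc => intoB_spec hinto r (hnA hr) s (hnA hs) h c hc
  set H := S.US (ls l.all)
  set N0 := S.US (ls l.next)
  have hNH : N0 ≤ H := S.US_mono hnA
  have hnorm : H ≤ Subgroup.normalizer (N0 : Set (GL D.Idx F)) :=
    S.mem_normalizer_of_ideal hR hAc hnA fun r hr s hs h c hc => intoB_spec hinto r hr s (hnA hs) h c hc
  let Nn : Subgroup ↥H := N0.subgroupOf H
  have hNn : Nn.Normal := ⟨fun n hn h => by
    simp only [Nn, Subgroup.mem_subgroupOf] at hn ⊢
    exact (Subgroup.mem_normalizer_iff.1 (hnorm h.2) _).1 hn⟩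
  let π : ↥H →* ↥H ⧸ Nn := QuotientGroup.mk' Nn
  have hπ1 : ∀ g : ↥H, π g = 1 ↔ (g : GL D.Idx F) ∈ N0 := fun g => QuotientGroup.eq_one_iff g
  let xH : ℕ → F → ↥H := fun r t => if h : r ∈ l.all then ⟨xGL D F r t, S.x_mem_US h t⟩ else 1
  have hxH : ∀ r ∈ l.all, ∀ t, (xH r t : GL D.Idx F) = xGL D F r t := fun r hr t => by simp [xH, hr]
  let q : ℕ → F → ↥H ⧸ Nn := fun r t => π (xH r t)
  -- the quotient is elementary abelian
  have hgen : ∀ g : ↥H, g ∈ Subgroup.closure {y : ↥H | ∃ r ∈ l.all, ∃ t, y = xH r t} := by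
    intro g
    have key : ∀ y (hy : y ∈ H), (⟨y, hy⟩ : ↥H) ∈ Subgroup.closure {y : ↥H | ∃ r ∈ l.all, ∃ t, y = xH r t} := by
      intro y hy
      refine Subgroup.closure_induction ?_ ?_ ?_ ?_ hy
      · rintro _ ⟨r, hr, t, rfl⟩
        exact Subgroup.subset_closure ⟨r, hr, t, Subtype.ext (hxH r hr t).symm⟩
      · exact one_mem _
      · intro a b _ _ ha hb
        exact mul_mem ha hb
      · intro a _ ha
        exact inv_mem ha
    exact key g.1 g.2
  have hqq : ∀ r ∈ l.all, ∀ t, q r t * q r t = 1 := fun r hr t => by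
    rw [← map_mul, hπ1, Subgroup.coe_mul, hxH r hr, x_self hS (hlt r hr)]
    exact one_mem _
  have hqc : ∀ r ∈ l.all, ∀ s ∈ l.all, ∀ t u, q r t * q s u = q s u * q r t := by
    intro r hr s hs t u
    by_cases e : r = s
    · subst e
      rw [← map_mul, ← map_mul]
      congr 1
      refine Subtype.ext ?_
      simp only [Subgroup.coe_mul, hxH r hr]
      exact (commute_x hS hR (hlt r hr) (hlt r hr) (by simp [comB]) t u).eq
    · rw [← map_mul, ← map_mul, ← mul_inv_eq_one, ← map_inv, ← map_mul, hπ1]
      simp only [Subgroup.coe_mul, Subgroup.coe_inv, hxH r hr, hxH s hs]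
      have e1 : xGL D F r t * xGL D F s u = xGL D F s u * xGL D F r t *
          ((D.commWord F s r u t).map fun p => xGL D F p.1 p.2).prod :=
        S.comm s (hlt s hs) r (hlt r hr) e (hAc.ne_neg hR hs hr) u t
      have hw : ((D.commWord F s r u t).map fun p => xGL D F p.1 p.2).prod ∈ N0 := S.word_mem fun p hp => by
        simp only [ChevalleyDatum.commWord, List.mem_map] at hp
        obtain ⟨c, hc, rfl⟩ := hp
        exact intoB_spec hinto s hs r hr e c hc
      rw [e1]
      exact (Subgroup.mem_normalizer_iff.1 (hnorm (mul_mem (S.x_mem_US hs u) (S.x_mem_US hr t))) _).1 hw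
  have hcomm : ∀ a b : ↥H ⧸ Nn, a * b = b * a := by
    intro a b
    induction a using QuotientGroup.induction_on with
    | H a =>
      induction b using QuotientGroup.induction_on with
      | H b =>
        show π a * π b = π b * π a
        refine Subgroup.closure_induction (p := fun a _ => π a * π b = π b * π a) ?_ (by simp) ?_ ?_ (hgen a)
        · rintro _ ⟨r, hr, t, rfl⟩
          refine Subgroup.closure_induction (p := fun b _ => π (xH r t) * π b = π b * π (xH r t)) ?_ (by simp) ?_ ?_ (hgen b)
          · rintro _ ⟨s, hs, u, rfl⟩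
            exact hqc r hr s hs t u
          · intro x y _ _ hx hy
            rw [map_mul]
            exact Commute.mul_right hx hy
          · intro x _ hx
            rw [map_inv]
            exact Commute.inv_right hx
        · intro x y _ _ hx hy
          rw [map_mul]
          exact Commute.mul_left hx hy
        · intro x _ hx
          rw [map_inv]
          exact Commute.inv_left hx
  letI : CommGroup (↥H ⧸ Nn) := { (inferInstance : Group (↥H ⧸ Nn)) with mul_comm := hcomm }
  have hexp : ∀ a : ↥H, π a * π a = 1 := by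
    intro a
    refine Subgroup.closure_induction (p := fun a _ => π a * π a = 1) ?_ (by simp) ?_ ?_ (hgen a)
    · rintro _ ⟨r, hr, t, rfl⟩
      exact hqq r hr t
    · intro x y _ _ hx hy
      rw [map_mul, mul_mul_mul_comm, hx, hy, one_mul]
    · intro x _ hx
      rw [map_inv, ← mul_inv, hx, inv_one]
  -- conjugation by the root element of `b`
  have hxb := x_self hS hb (1 : F)
  have hodd : ∀ r ∈ l.all, ∀ c ∈ oddT D b r, c.1 ∈ l.all := by
    intro r hr c hc
    simp only [Lay.all, List.mem_append, List.mem_map] at hr ⊢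
    rcases hr with ⟨p, hp, rfl⟩ | ⟨p, hp, rfl⟩ | hr
    · by_cases hcn : c.1 ∈ l.next
      · exact Or.inr (Or.inr hcn)
      · have hm : (c.1, c.2.2.2) ∈ ((oddT D b p.1).filter fun c => !l.next.contains c.1).map
            (fun c => (c.1, c.2.2.2)) := List.mem_map.2 ⟨c, List.mem_filter.2 ⟨hc, by simpa using hcn⟩, rfl⟩
        rw [(hpair p hp).2, List.mem_singleton, Prod.mk.injEq] at hm
        exact Or.inr (Or.inl ⟨p, hp, hm.1.symm⟩)
    · exact Or.inr (Or.inr ((hpair p hp).1 c hc))
    · exact Or.inr (Or.inr (hbn r hr c hc))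
  have hcb : ∀ r ∈ l.all, ∀ t : F,
      xGL D F b 1 * xGL D F r t * xGL D F b 1 = xGL D F r t * oddW b r 1 t := fun r hr t =>
    x_conj hS hR hb (hlt r hr) (hne r hr).1 (hne r hr).2 1 t
  have hWH : ∀ r ∈ l.all, ∀ t : F, oddW b r 1 t ∈ H := fun r hr t => list_prod_mem fun z hz => by
    obtain ⟨c, hc, rfl⟩ := List.mem_map.1 hz
    exact S.x_mem_US (hodd r hr c hc) _
  have hcH : ∀ y ∈ H, xGL D F b 1 * y * xGL D F b 1 ∈ H := by
    intro y hy
    have hle : H ≤ H.comap (MulAut.conj (xGL D F b 1)).toMonoidHom := by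
      show Subgroup.closure _ ≤ _
      rw [Subgroup.closure_le]
      rintro _ ⟨r, hr, t, rfl⟩
      show xGL D F b 1 * xGL D F r t * (xGL D F b 1)⁻¹ ∈ H
      rw [x_inv hS hb, hcb r hr]
      exact mul_mem (S.x_mem_US hr t) (hWH r hr t)
    have := hle hy
    rw [Subgroup.mem_comap] at this
    simpa [x_inv hS hb] using this
  let cb : ↥H →* ↥H := MonoidHom.mk' (fun y => ⟨xGL D F b 1 * y * xGL D F b 1, hcH y y.2⟩) fun x y => by
    refine Subtype.ext ?_
    show xGL D F b 1 * (x * y : GL D.Idx F) * xGL D F b 1 =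
      (xGL D F b 1 * x * xGL D F b 1) * (xGL D F b 1 * y * xGL D F b 1)
    simp [mul_assoc, ← mul_assoc (xGL D F b 1) (xGL D F b 1), hxb]
  have hcbx : ∀ r, ∀ hr : r ∈ l.all, ∀ t : F, cb (xH r t) = xH r t * ⟨_, hWH r hr t⟩ := fun r hr t => Subtype.ext (by
    show xGL D F b 1 * (xH r t : GL D.Idx F) * xGL D F b 1 = _
    rw [Subgroup.coe_mul, hxH r hr, hcb r hr])
  have hfst : ∀ p ∈ l.pairs, p.1 ∈ l.all := fun p hp => List.mem_append_left _ (List.mem_map_of_mem hp)
  have hsnd : ∀ p ∈ l.pairs, p.2 ∈ l.all := fun p hp =>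
    List.mem_append_right _ (List.mem_append_left _ (List.mem_map_of_mem hp))
  have hnx : ∀ r ∈ l.next, r ∈ l.all := fun r hr =>
    List.mem_append_right _ (List.mem_append_right _ hr)
  have hψn : ∀ r ∈ l.next, ∀ t, π (cb (xH r t)) = 1 := fun r hr t => by
    rw [hπ1, hcbx r (hnx r hr), Subgroup.coe_mul, hxH r (hnx r hr)]
    refine mul_mem (S.x_mem_US hr t) (list_prod_mem fun z hz => ?_)
    obtain ⟨c, hc, rfl⟩ := List.mem_map.1 hz
    exact S.x_mem_US (hbn r hr c hc) _
  have hψt : ∀ p ∈ l.pairs, ∀ t, π (cb (xH p.2 t)) = q p.2 t := fun p hp t => by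
    rw [hcbx p.2 (hsnd p hp), map_mul]
    refine mul_eq_left.2 ((hπ1 _).2 (list_prod_mem fun z hz => ?_))
    obtain ⟨c, hc, rfl⟩ := List.mem_map.1 hz
    exact S.x_mem_US ((hpair p hp).1 c hc) _
  have hψb : ∀ p ∈ l.pairs, ∀ t, π (cb (xH p.1 t)) = q p.1 t * q p.2 t := fun p hp t => by
    rw [hcbx p.1 (hfst p hp), map_mul]
    congr 1
    have key : ∀ (L : List (ℕ × ℤ × ℕ × ℕ)) (h : (L.map fun c => xGL D F c.1 (1 ^ c.2.2.1 * t ^ c.2.2.2)).prod ∈ H),
        (∀ c ∈ L, c.1 ∈ l.all) →
        π ⟨_, h⟩ = ((L.filter fun c => !l.next.contains c.1).map fun c => q c.1 (t ^ c.2.2.2)).prod := by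
      intro L
      induction L with
      | nil =>
        intro h _
        simp only [List.filter_nil, List.map_nil, List.prod_nil]
        exact map_one π
      | cons c L ih =>
        intro h hL
        have h' : (L.map fun c => xGL D F c.1 (1 ^ c.2.2.1 * t ^ c.2.2.2)).prod ∈ H :=
          list_prod_mem fun z hz => by
            obtain ⟨d, hd, rfl⟩ := List.mem_map.1 hz
            exact S.x_mem_US (hL d (List.mem_cons_of_mem _ hd)) _
        have hc : c.1 ∈ l.all := hL c List.mem_cons_self
        have e : (⟨_, h⟩ : ↥H) = xH c.1 (t ^ c.2.2.2) * ⟨_, h'⟩ := Subtype.ext (by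
          simp [hxH c.1 hc])
        rw [e, map_mul, ih h' fun d hd => hL d (List.mem_cons_of_mem _ hd)]
        by_cases hcn : c.1 ∈ l.next
        · rw [List.filter_cons_of_neg (by simpa using hcn),
            (hπ1 _).2 (by rw [hxH c.1 hc]; exact S.x_mem_US hcn _), one_mul]
        · rw [List.filter_cons_of_pos (by simpa using hcn), List.map_cons, List.prod_cons]
    refine (key (oddT D b p.1) (hWH p.1 (hfst p hp) t) (hodd p.1 (hfst p hp))).trans ?_
    have e := congrArg (List.map fun c : ℕ × ℕ => q c.1 (t ^ c.2)) (hpair p hp).2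
    rw [List.map_map] at e
    simp only [Function.comp_def, List.map_cons, List.map_nil, pow_one] at e
    rw [e, List.prod_cons, List.prod_nil, mul_one]
  -- coefficients
  obtain ⟨s, hms⟩ := S.exists_coef hR hAc (enum_ls hnd) hm
  let A : (ℕ × ℕ → F) → ↥H ⧸ Nn := fun f => (l.pairs.map fun p => q p.1 (f p)).prod
  let T : (ℕ × ℕ → F) → ↥H ⧸ Nn := fun f => (l.pairs.map fun p => q p.2 (f p)).prod
  let mH : ↥H := ((l.all).map fun r => xH r (s r)).prod
  have hmH : (mH : GL D.Idx F) = m := by
    rw [hms, Sys.P, Subgroup.val_list_prod, List.map_map]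
    exact congrArg List.prod (List.map_congr_left fun r hr => hxH r hr (s r))
  have hπm : π mH = A (fun p => s p.1) * T (fun p => s p.2) := by
    simp only [mH, map_list_prod, map_mul, List.map_map, Lay.all, List.map_append, List.prod_append]
    rw [List.prod_eq_one (l := l.next.map _) (fun z hz => by
      obtain ⟨r, hr, rfl⟩ := List.mem_map.1 hz
      exact (hπ1 _).2 (by rw [hxH r (hnx r hr)]; exact S.x_mem_US hr _)), mul_one]
    rfl
  have hψm : π (cb mH) = A (fun p => s p.1) * T (fun p => s p.1) * T (fun p => s p.2) := by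
    simp only [mH, map_list_prod, map_mul, List.map_map, Lay.all, List.map_append, List.prod_append, A, T]
    rw [List.prod_eq_one (l := l.next.map _) (fun z hz => by
      obtain ⟨r, hr, rfl⟩ := List.mem_map.1 hz
      exact hψn r hr _), mul_one]
    conv_rhs => arg 1; rw [← List.prod_map_mul]
    congr 1
    · exact congrArg List.prod (List.map_congr_left fun p hp => hψb p hp _)
    · exact congrArg List.prod (List.map_congr_left fun p hp => hψt p hp _)
  have hT1 : T (fun p => s p.1) = 1 := by
    have h1 : cb mH * mH = 1 := Subtype.ext (by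
      show xGL D F b 1 * (mH : GL D.Idx F) * xGL D F b 1 * (mH : GL D.Idx F) = 1
      rw [hmH, mul_assoc _ (xGL D F b 1) m]
      exact hsq)
    have h2 := congrArg π h1
    rw [map_mul, map_one, hψm, hπm] at h2
    have hA : A (fun p => s p.1) * A (fun p => s p.1) = 1 := by
      have := hexp (l.pairs.map fun p => xH p.1 (s p.1)).prod
      rwa [map_list_prod, List.map_map] at this
    have hT : T (fun p => s p.2) * T (fun p => s p.2) = 1 := by
      have := hexp (l.pairs.map fun p => xH p.2 (s p.2)).prod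
      rwa [map_list_prod, List.map_map] at this
    rw [mul_mul_mul_comm, mul_right_comm (A _) (T _) (A _), hA, one_mul, hT, mul_one] at h2
    exact h2
  have hbot : ∀ p ∈ l.pairs, s p.1 = 0 := by
    intro p hp
    let t' : ℕ → F := fun r => (l.pairs.map fun q => if q.2 = r then s q.1 else 0).sum
    have hnd2 : (l.pairs.map Prod.snd).Nodup := (List.nodup_append.1 (List.nodup_append.1 hnd).2.1).1
    have ht2 : ∀ q ∈ l.pairs, t' q.2 = s q.1 := fun q hq =>
      sum_ite_key l.pairs (fun q => s q.1) Prod.snd hnd2 hq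
    have ht0 : ∀ r ∈ l.all, (∀ q ∈ l.pairs, q.2 ≠ r) → t' r = 0 := fun r _ h => by
      refine List.sum_eq_zero fun x hx => ?_
      obtain ⟨q, hq, rfl⟩ := List.mem_map.1 hx
      exact if_neg (h q hq)
    have hP : S.P l.all t' ∈ N0 := by
      have e : S.P l.all t' = ((l.pairs.map fun q => xH q.2 (s q.1)).prod : ↥H) := by
        rw [Lay.all, S.P_append, S.P_append, S.P_zero (L := l.pairs.map Prod.fst) ?_ ?_,
          S.P_zero (L := l.next) (fun r hr => hlt r (hnx r hr)) ?_, one_mul, mul_one, Subgroup.val_list_prod,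
          Sys.P, List.map_map, List.map_map]
        · exact congrArg List.prod (List.map_congr_left fun q hq => by
            simp only [Function.comp_apply, ht2 q hq, hxH q.2 (hsnd q hq)]
            rfl)
        · intro r hr
          refine ht0 r (hnx r hr) fun q hq e => ?_
          exact List.disjoint_of_nodup_append (List.nodup_append.1 hnd).2.1
            (List.mem_map.2 ⟨q, hq, e⟩) hr
        · intro r hr
          obtain ⟨q, hq, rfl⟩ := List.mem_map.1 hr
          exact hlt _ (hfst q hq)
        · intro r hr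
          refine ht0 r (List.mem_append_left _ hr) fun q hq e => ?_
          exact List.disjoint_of_nodup_append hnd hr (List.mem_append_left _ (List.mem_map.2 ⟨q, hq, e⟩))
      rw [e, ← hπ1, map_list_prod, List.map_map]
      exact hT1
    by_contra h
    have h1 := S.coef_supp hR hAc (enum_ls hnd) hNc hnA hP p.2 (hsnd p hp) (by rw [ht2 p hp]; exact h)
    exact List.disjoint_of_nodup_append (List.nodup_append.1 hnd).2.1 (List.mem_map_of_mem hp) h1
  -- conjugate
  let gH : ↥H := (l.pairs.map fun p => xH p.1 (s p.2)).prod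
  refine ⟨gH, gH.2, _, (?_ : xGL D F b 1 * gH * xGL D F b 1 * m * (gH : GL D.Idx F)⁻¹ ∈ N0), ?_⟩
  · have e : ((cb gH * mH * gH⁻¹ : ↥H) : GL D.Idx F) =
        xGL D F b 1 * gH * xGL D F b 1 * m * (gH : GL D.Idx F)⁻¹ := by
      simp only [Subgroup.coe_mul, Subgroup.coe_inv, hmH]
      rfl
    rw [← e, ← hπ1, map_mul, map_mul, map_inv, hπm]
    have hg : π gH = A (fun p => s p.2) := by
      simp only [gH, map_list_prod, List.map_map, A]
      rfl
    have hψg : π (cb gH) = A (fun p => s p.2) * T (fun p => s p.2) := by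
      simp only [gH, map_list_prod, List.map_map, A, T]
      rw [← List.prod_map_mul]
      exact congrArg List.prod (List.map_congr_left fun p hp => hψb p hp _)
    have hA0 : A (fun p => s p.1) = 1 := List.prod_eq_one fun z hz => by
      obtain ⟨p, hp, rfl⟩ := List.mem_map.1 hz
      refine (hπ1 _).2 ?_
      simp only [hxH p.1 (hfst p hp), hbot p hp]
      rw [show xGL D F p.1 0 = 1 from S.x_zero (hlt _ (hfst p hp))]
      exact one_mem _
    have hT : T (fun p => s p.2) * T (fun p => s p.2) = 1 := by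
      have := hexp (l.pairs.map fun p => xH p.2 (s p.2)).prod
      rwa [map_list_prod, List.map_map] at this
    rw [hψg, hg, hA0, one_mul, mul_assoc (A _) (T _), hT, mul_one, mul_inv_cancel]
  · simp [← mul_assoc, hxb]

end Cfsg.Agent.InvolFour
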