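import Mathlib.LinearAlgebra.Matrix.Rank
import Mathlib.Algebra.CharP.Two

/-!
# Rank certificates for matrices over the field with two elements (owner: helper52)
-/

set_option autoImplicit false

namespace Cfsg.Agent.InvolFour

/-- The matrix with the given bit rows. -/
def bm (L : List ℕ) (m n : ℕ) : Matrix (Fin m) (Fin n) (ZMod 2) :=
  Matrix.of fun i j => if (L.getD i.val 0).testBit j.val then 1 else 0

/-- A factorisation through `k` dimensions and an invertible minor of size `k`. -/
structure RankCert where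
  k : ℕ
  rows : List ℕ
  cols : List ℕ
  M : List ℕ
  X : List ℕ
  Y : List ℕ

/-- The certificate fits the matrix. -/
def RankCert.OK {m n : ℕ} [NeZero m] [NeZero n] (c : RankCert) (A : Matrix (Fin m) (Fin n) (ZMod 2)) : Prop :=
  bm c.X m c.k * bm c.Y c.k n = A ∧
    (A.submatrix (fun i : Fin c.k => Fin.ofNat m (c.rows.getD i.val 0))
      (fun j : Fin c.k => Fin.ofNat n (c.cols.getD j.val 0))) * bm c.M c.k c.k = 1

instance {m n : ℕ} [NeZero m] [NeZero n] (c : RankCert) (A : Matrix (Fin m) (Fin n) (ZMod 2)) :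
    Decidable (c.OK A) := inferInstanceAs (Decidable (_ ∧ _))

theorem RankCert.rank_eq {m n : ℕ} [NeZero m] [NeZero n] {c : RankCert} {A : Matrix (Fin m) (Fin n) (ZMod 2)}
    (h : c.OK A) {K : Type*} [Field K] (f : ZMod 2 →+* K) : (A.map f).rank = c.k := by
  refine le_antisymm ?_ ?_
  · rw [← h.1, Matrix.map_mul]
    exact (Matrix.rank_mul_le_left _ _).trans ((Matrix.rank_le_card_width _).trans (by simp))
  · have e := congrArg (fun M => M.map f) h.2
    simp only [Matrix.map_mul, Matrix.map_one _ (map_zero f) (map_one f), ← Matrix.submatrix_map] at e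
    have e1 := (Matrix.rank_mul_le_left ((A.map f).submatrix (fun i : Fin c.k => Fin.ofNat m (c.rows.getD i.val 0))
      (fun j : Fin c.k => Fin.ofNat n (c.cols.getD j.val 0))) ((bm c.M c.k c.k).map f)).trans
      (Matrix.rank_submatrix_le _ _ _)
    rw [e, Matrix.rank_one, Fintype.card_fin] at e1
    exact e1

theorem RankCert.map_ne_zero {m n : ℕ} [NeZero m] [NeZero n] {c : RankCert} {A : Matrix (Fin m) (Fin n) (ZMod 2)}
    (h : c.OK A) (hk : c.k ≠ 0) {K : Type*} [Field K] (f : ZMod 2 →+* K) : A.map f ≠ 0 := by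
  intro e
  apply hk
  rw [← RankCert.rank_eq h f, e, Matrix.rank_zero]

end Cfsg.Agent.InvolFour
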