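import Cfsg.Agent.InvolFour.Layer
import Cfsg.Agent.InvolFour.Fuse

/-!
# Every involution of `U` is conjugate to a product of orthogonal root elements (owner: helper52)

A node is a set `A` of mutually orthogonal roots with the system `Ψ` orthogonal to it; an involution of the
form `E(A) v`, `v` in the group of `Ψ`, is moved so that a fundamental root of `Ψ` is in the support of `v`,
which leads to the node `A ∪ {b}`.
-/

set_option autoImplicit false

namespace Cfsg.Agent.InvolFour

open Cfsg.Lie Cfsg.Agent.ChevGrp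
open scoped MatrixGroups

/-- A reflection lowering the root `r`. -/
structure Refl (n : ℕ) where
  r : ℕ
  w : List (Fin n)

/-- The reduction at the fundamental root `b` of the system. -/
structure Strip where
  b : ℕ
  rest : List ℕ
  layers : List Lay
  perp : List ℕ

/-- A node of the reduction. -/
structure Node (n : ℕ) where
  A : List ℕ
  psi : List ℕ
  chain : List (List ℕ)
  refls : List (Refl n)
  strips : List Strip
  moves : List (Move n)

/-- The condition on a reflection. -/
def reflOK (D : ChevalleyDatum) (A psi C : List ℕ) (e : Refl D.rank) : Bool :=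
  (A.all fun a => act D e.w a == a) && (C.all fun c => psi.contains (act D e.w c)) &&
  (C.all fun c => psi.contains (act D e.w.reverse c)) &&
  intoB D (C.map (act D e.w.reverse)) (C.map (act D e.w.reverse)) &&
  !(C.map (act D e.w.reverse)).contains e.r

/-- The condition on the chain of systems. -/
def chainOK (D : ChevalleyDatum) (A psi : List ℕ) (bs : List ℕ) (refls : List (Refl D.rank)) :
    List ℕ → List (List ℕ) → Bool
  | C, [] => C.isEmpty
  | C, C' :: t =>
    decide C.Nodup && intoB D C C && (C'.all fun r => C.contains r) &&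
      (C.all fun r => C'.contains r || bs.contains r ||
        refls.any fun e => e.r == r && reflOK D A psi C e) &&
      chainOK D A psi bs refls C' t

/-- The condition on the layers. -/
def layersOK (D : ChevalleyDatum) (b : ℕ) (perp : List ℕ) : List ℕ → List Lay → Bool
  | R, [] => R.all fun r => perp.contains r
  | R, l :: t => layOK D b R l && layersOK D b perp l.next t

/-- The condition on a reduction step. -/
def stripOK (D : ChevalleyDatum) (A psi : List ℕ) (children : List (Node D.rank)) (st : Strip) : Bool :=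
  psi.contains st.b && pairing D st.b st.b == 2 && (A.all fun a => pairing D st.b a == 0) &&
  decide (st.b :: st.rest).Nodup && (psi.all fun r => r == st.b || st.rest.contains r) &&
  (st.rest.all fun r => psi.contains r) && intoB D st.rest st.rest &&
  layersOK D st.b st.perp st.rest st.layers && (st.perp.all fun p => psi.contains p && comB D st.b p) &&
  children.any fun c => c.A == A ++ [st.b] && st.perp.all fun p => c.psi.contains p

/-- The condition on a node, given the nodes after it. -/
def nodeOK (D : ChevalleyDatum) (tgts : List (List ℕ)) (children : List (Node D.rank)) (n : Node D.rank) : Bool :=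
  (n.psi.all fun r => decide (D.IsPosRoot r)) &&
  (n.A.all fun a => decide (a < D.nroots) && n.psi.all fun p => comB D a p) &&
  intoB D n.psi n.psi &&
  chainOK D n.A n.psi (n.strips.map Strip.b) n.refls n.psi n.chain &&
  (n.strips.all fun st => stripOK D n.A n.psi children st) &&
  (n.A.isEmpty || fuseOK D tgts n.A n.moves)

/-- The condition on a list of nodes. -/
def allOK (D : ChevalleyDatum) (tgts : List (List ℕ)) : List (Node D.rank) → Bool
  | [] => true
  | n :: t => nodeOK D tgts t n && allOK D tgts t

variable {D : ChevalleyDatum} {F : Type*} [Field F] [CharP F 2] {len : ℕ → ℕ}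
  (hS : Rules D F) (hR : RootTable D len) (tgts : List (List ℕ))

/-- Conjugate to a target. -/
def Conj (F : Type*) [Field F] (tgts : List (List ℕ)) (u : GL D.Idx F) : Prop :=
  ∃ T ∈ tgts, ∃ h ∈ D.group F, h * u * h⁻¹ = E F T

theorem Conj.of_conj {u g : GL D.Idx F} (hg : g ∈ D.group F) (h : Conj F tgts (g * u * g⁻¹)) :
    Conj F tgts u := by
  obtain ⟨T, hT, k, hk, e⟩ := h
  refine ⟨T, hT, k * g, mul_mem hk hg, ?_⟩
  rw [← e]
  simp [mul_assoc]

include hS hR in
theorem layers_spec {b : ℕ} (hb : b < D.nroots) {perp psi : List ℕ} (hpsi : ∀ r ∈ psi, D.IsPosRoot r) :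
    ∀ (ls' : List Lay) (R : List ℕ), layersOK D b perp R ls' = true → (∀ r ∈ R, r ∈ psi) →
    ∀ m ∈ (glSys hS).US (ls R), xGL D F b 1 * m * (xGL D F b 1 * m) = 1 →
    ∃ g ∈ (glSys hS).US (ls psi), ∃ n ∈ (glSys hS).US (ls perp),
      g * (xGL D F b 1 * m) * g⁻¹ = xGL D F b 1 * n := by
  intro ls'
  induction ls' with
  | nil =>
    intro R h _ m hm _
    simp only [layersOK, List.all_eq_true, List.contains_iff_mem] at h
    exact ⟨1, one_mem _, m, (glSys hS).US_mono (fun r hr => h r hr) hm, by simp⟩
  | cons l t ih =>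
    intro R h hRp m hm hsq
    simp only [layersOK, Bool.and_eq_true] at h
    obtain ⟨g, hg, n, hn, e⟩ := layer_step hS hR hb (fun r hr => hpsi r (hRp r hr)) h.1 hm hsq
    have hnp : ∀ r ∈ l.next, r ∈ psi := by
      intro r hr
      have hok := h.1
      simp only [layOK, Bool.and_eq_true, List.all_eq_true, List.contains_iff_mem] at hok
      exact hRp r (hok.1.1.1.1.2 r (by simp [Lay.all, hr]))
    have hsq' : xGL D F b 1 * n * (xGL D F b 1 * n) = 1 := by
      rw [← e, _root_.conj_mul, hsq, mul_one, mul_inv_cancel]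
    obtain ⟨g', hg', n', hn', e'⟩ := ih l.next h.2 hnp n hn hsq'
    refine ⟨g' * g, mul_mem hg' ((glSys hS).US_mono (fun r hr => hRp r hr) hg), n', hn', ?_⟩
    rw [← e', ← e]
    simp [mul_assoc]

include hS hR in
theorem node_spec [Fintype F] {children : List (Node D.rank)} {n : Node D.rank}
    (hok : nodeOK D tgts children n = true)
    (hch : ∀ c ∈ children, ∀ v ∈ (glSys hS).US (ls c.psi), v * v = 1 → E F c.A * v ≠ 1 →
      Conj F tgts (E F c.A * v)) :
    ∀ v ∈ (glSys hS).US (ls n.psi), v * v = 1 → E F n.A * v ≠ 1 → Conj F tgts (E F n.A * v) := by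
  classical
  simp only [nodeOK, Bool.and_eq_true, Bool.or_eq_true, List.all_eq_true, decide_eq_true_eq] at hok
  obtain ⟨⟨⟨⟨⟨hpos, hA⟩, hinto⟩, hchain⟩, hstr⟩, hfus⟩ := hok
  set S := glSys hS
  have hlt : ∀ r ∈ n.psi, r < D.nroots := fun r hr => (hpos r hr).1
  have hcA : ∀ g ∈ S.US (ls n.psi), Commute (E F n.A) g := fun g hg =>
    commute_E hS hR hlt (fun a ha => hA a ha) hg
  have hgrp : S.US (ls n.psi) ≤ D.group F := US_le_group hS hlt
  have hpc : UClosed D len (htHom D) (ls n.psi) := closed_of_subset hR hpos hinto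
  -- a fundamental root of the system in the support
  have hstrip : ∀ st ∈ n.strips, ∀ v ∈ S.US (ls n.psi), v * v = 1 → v ∉ S.US (ls st.rest) →
      E F n.A * v ≠ 1 → Conj F tgts (E F n.A * v) := by
    intro st hst v hv hsq hnot hne
    have h := hstr st hst
    simp only [stripOK, Bool.and_eq_true, List.all_eq_true, List.contains_iff_mem, beq_iff_eq,
      decide_eq_true_eq, Bool.or_eq_true, List.any_eq_true] at h
    obtain ⟨⟨⟨⟨⟨⟨⟨⟨⟨hbp, hbb⟩, hAb⟩, hnd⟩, hsub⟩, hrest⟩, hrinto⟩, hlay⟩, hperp⟩, c, hc, hcA', hcpsi⟩ := h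
    have hset : ls n.psi = ls (st.b :: st.rest) := Set.ext fun r => ⟨fun hr => List.mem_cons.2 (hsub r hr),
      fun hr => (List.mem_cons.1 hr).elim (fun e => e ▸ hbp) (hrest r)⟩
    obtain ⟨t, ht⟩ := S.exists_coef hR (hset ▸ hpc) (enum_ls hnd) (hset ▸ hv)
    have hrl : ∀ r ∈ st.rest, r < D.nroots := fun r hr => hlt r (hrest r hr)
    have hw : S.P st.rest t ∈ S.US (ls st.rest) := S.P_mem hrl fun r hr _ => hr
    rw [S.P_cons] at ht
    have hb0 : t st.b ≠ 0 := fun e => hnot (by
      rw [ht, e, S.x_zero (hlt _ hbp), one_mul]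
      exact hw)
    obtain ⟨h0, hh0, e0, he0, he1, hconj⟩ := exists_scale hS hR (F := F) hbb hb0
    have hconjA : h0 * E F n.A * h0⁻¹ = E F n.A := by
      have : ∀ L : List ℕ, (∀ a ∈ L, a ∈ n.A) → h0 * E F L * h0⁻¹ = E F L := by
        intro L
        induction L with
        | nil => intro _; simp [E]
        | cons a L ih =>
          intro hL
          have ha := hL a List.mem_cons_self
          have e2 := hconj a (hA a ha).1 1
          rw [he1 a (hAb a ha), mul_one] at e2
          have e3 : h0 * (xGL D F a 1 * E F L) * h0⁻¹ =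
              (h0 * xGL D F a 1 * h0⁻¹) * (h0 * E F L * h0⁻¹) := by simp [mul_assoc]
          rw [E_cons, e3, e2, ih fun b hb => hL b (List.mem_cons_of_mem _ hb)]
      exact this n.A fun a h => h
    have hw' : h0 * S.P st.rest t * h0⁻¹ ∈ S.US (ls st.rest) := by
      have hle : S.US (ls st.rest) ≤ (S.US (ls st.rest)).comap (MulAut.conj h0).toMonoidHom := by
        show Subgroup.closure _ ≤ _
        rw [Subgroup.closure_le]
        rintro _ ⟨r, hr, u, rfl⟩
        show h0 * xGL D F r u * h0⁻¹ ∈ S.US (ls st.rest)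
        rw [hconj r (hrl r hr)]
        exact S.x_mem_US hr _
      exact hle hw
    set w := h0 * S.P st.rest t * h0⁻¹
    have hv' : h0 * v * h0⁻¹ = xGL D F st.b 1 * w := by
      have e4 := hconj st.b (hlt _ hbp) (t st.b)
      rw [he0] at e4
      rw [ht, ← e4]
      show h0 * (xGL D F st.b (t st.b) * S.P st.rest t) * h0⁻¹ = _
      simp [w, mul_assoc]
    have hsq' : xGL D F st.b 1 * w * (xGL D F st.b 1 * w) = 1 := by
      rw [← hv', _root_.conj_mul, hsq, mul_one, mul_inv_cancel]
    obtain ⟨g, hg, n', hn', e⟩ := layers_spec hS hR (hlt _ hbp) hpos st.layers st.rest hlay hrest w hw' hsq'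
    have hbn : Commute (xGL D F st.b 1) n' :=
      commute_US hS hR (fun r hr => hlt r (hperp r hr).1) (hlt _ hbp) (fun r hr => (hperp r hr).2) 1 hn'
    have hn2 : n' * n' = 1 := by
      have h2 : xGL D F st.b 1 * n' * (xGL D F st.b 1 * n') = 1 := by
        rw [← e, _root_.conj_mul, hsq', mul_one, mul_inv_cancel]
      rwa [hbn.symm.mul_mul_mul_comm, x_self hS (hlt _ hbp), one_mul] at h2
    have hu : g * h0 * (E F n.A * v) * (g * h0)⁻¹ = E F c.A * n' := by
      have e5 : g * h0 * (E F n.A * v) * (g * h0)⁻¹ =
          (g * (h0 * E F n.A * h0⁻¹) * g⁻¹) * (g * (h0 * v * h0⁻¹) * g⁻¹) := by simp [mul_assoc]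
      rw [e5, hconjA, hv', e, hcA', E_append, ← (hcA g hg).eq, mul_inv_cancel_right]
      simp [E, mul_assoc]
    refine Conj.of_conj tgts (mul_mem (hgrp hg) hh0) ?_
    rw [hu]
    refine hch c hc n' ((glSys hS).US_mono (fun r hr => hcpsi r hr) hn') hn2 ?_
    rw [← hu]
    exact fun h1 => hne (conj_eq_one_iff.1 h1)
  -- descend along the chain
  have hgo : ∀ (L : List (List ℕ)) (C : List ℕ),
      chainOK D n.A n.psi (n.strips.map Strip.b) n.refls C L = true → (∀ r ∈ C, r ∈ n.psi) →
      (∀ v ∈ S.US (ls n.psi), v * v = 1 → v ∉ S.US (ls C) → E F n.A * v ≠ 1 → Conj F tgts (E F n.A * v)) →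
      ∀ v ∈ S.US (ls n.psi), v * v = 1 → v ≠ 1 → E F n.A * v ≠ 1 → Conj F tgts (E F n.A * v) := by
    intro L
    induction L with
    | nil =>
      intro C h _ hC v hv hsq hv1 hne
      simp only [chainOK, List.isEmpty_iff] at h
      refine hC v hv hsq ?_ hne
      subst h
      intro hmem
      apply hv1
      have hb : S.US (ls []) = ⊥ := by
        rw [Sys.US, Subgroup.closure_eq_bot_iff]
        rintro _ ⟨r, hr, -⟩
        simp [ls] at hr
      rw [hb, Subgroup.mem_bot] at hmem
      exact hmem
    | cons C' t ih =>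
      intro C h hCp hC v hv hsq hv1 hne
      simp only [chainOK, Bool.and_eq_true, decide_eq_true_eq, List.all_eq_true, List.contains_iff_mem,
        Bool.or_eq_true, List.any_eq_true, beq_iff_eq] at h
      obtain ⟨⟨⟨⟨hnd, hCinto⟩, hsub⟩, hcov⟩, hnext⟩ := h
      refine ih C' hnext (fun r hr => hCp r (hsub r hr)) ?_ v hv hsq hv1 hne
      clear! v
      intro v hv hsq hnot hne
      by_cases hvC : v ∈ S.US (ls C)
      swap
      · exact hC v hv hsq hvC hne
      have hCc : UClosed D len (htHom D) (ls C) := closed_of_subset hR (fun r hr => hpos r (hCp r hr)) hCinto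
      obtain ⟨t, ht⟩ := S.exists_coef hR hCc (enum_ls hnd) hvC
      obtain ⟨r, hrC, hr0, hrC'⟩ : ∃ r ∈ C, t r ≠ 0 ∧ r ∉ C' := by
        by_contra hcon
        push Not at hcon
        exact hnot (ht ▸ S.P_mem (fun r hr => hlt r (hCp r hr)) fun r hr h0 => hcon r hr h0)
      rcases (hcov r hrC) with (h1 | h1) | h1
      · exact absurd h1 hrC'
      · obtain ⟨st, hst, hb⟩ := List.mem_map.1 h1
        refine hstrip st hst v hv hsq (fun hmem => ?_) hne
        have h := hstr st hst
        simp only [stripOK, Bool.and_eq_true, List.all_eq_true, List.contains_iff_mem, decide_eq_true_eq] at h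
        have hnr : st.b ∉ st.rest := (List.nodup_cons.1 h.1.1.1.1.1.1.2).1
        have hrc : UClosed D len (htHom D) (ls st.rest) :=
          closed_of_subset hR (fun x hx => hpos x (h.1.1.1.1.2 x hx)) h.1.1.1.2
        have hmem' : v ∈ S.US (ls C ∩ ls st.rest) := by
          rw [← S.US_inf hR hpc hCc hrc (fun x hx => hCp x hx) fun x hx => h.1.1.1.1.2 x hx]
          exact ⟨hvC, hmem⟩
        rw [ht] at hmem'
        exact hnr (hb ▸ (S.coef_supp hR hCc (enum_ls hnd) (hCc.inter_closed hrc.closed) Set.inter_subset_left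
          hmem' r hrC hr0).2)
      · obtain ⟨e, -, her, hrefl⟩ := h1
        simp only [reflOK, Bool.and_eq_true, List.all_eq_true, List.contains_iff_mem, beq_iff_eq,
          Bool.not_eq_true'] at hrefl
        obtain ⟨⟨⟨⟨hwA, hwC⟩, hwC'⟩, hQinto⟩, hrQ⟩ := hrefl
        set g := S.nW e.w
        have hgA : g * E F n.A * g⁻¹ = E F n.A := by
          have : ∀ L : List ℕ, (∀ a ∈ L, a ∈ n.A) → g * E F L * g⁻¹ = E F L := by
            intro L
            induction L with
            | nil => intro _; simp [E]
            | cons a L ih =>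
              intro hL
              have ha := hL a List.mem_cons_self
              have e2 := nW_conj hS hR (F := F) e.w (hA a ha).1 1
              rw [hwA a ha] at e2
              have e3 : g * (xGL D F a 1 * E F L) * g⁻¹ =
                  (g * xGL D F a 1 * g⁻¹) * (g * E F L * g⁻¹) := by simp [mul_assoc]
              rw [E_cons, e3, e2, ih fun b hb => hL b (List.mem_cons_of_mem _ hb)]
          exact this n.A fun a h => h
        have hv' : g * v * g⁻¹ ∈ S.US (ls n.psi) :=
          nW_conj_US hS hR e.w (fun x hx => hlt x (hCp x hx)) (fun x hx => hwC x hx) hvC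
        have hmul : g * (E F n.A * v) * g⁻¹ = E F n.A * (g * v * g⁻¹) := by
          conv_rhs => rw [← hgA]
          simp [mul_assoc]
        refine Conj.of_conj tgts (nW_mem_group hS hR e.w) ?_
        show Conj F tgts (g * (E F n.A * v) * g⁻¹)
        rw [hmul]
        refine hC _ hv' (by rw [_root_.conj_mul, hsq, mul_one, mul_inv_cancel]) (fun hmem => ?_) ?_
        swap
        · rw [← hmul]
          exact fun h1 => hne (conj_eq_one_iff.1 h1)
        set Q := C.map (act D e.w.reverse)
        have hQp : ∀ x ∈ Q, x ∈ n.psi := fun x hx => by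
          obtain ⟨c, hc, rfl⟩ := List.mem_map.1 hx
          exact hwC' c hc
        have hQc : UClosed D len (htHom D) (ls Q) := closed_of_subset hR (fun x hx => hpos x (hQp x hx)) hQinto
        have hvQ : v ∈ S.US (ls Q) := by
          have hle : S.US (ls C) ≤ (S.US (ls Q)).comap (MulAut.conj g⁻¹).toMonoidHom := by
            show Subgroup.closure _ ≤ _
            rw [Subgroup.closure_le]
            rintro _ ⟨x, hx, u, rfl⟩
            show g⁻¹ * xGL D F x u * g⁻¹⁻¹ ∈ S.US (ls Q)
            have hxl : x < D.nroots := hlt x (hCp x hx)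
            have e4 := nW_conj hS hR (F := F) e.w (hR.act_lt e.w.reverse hxl) u
            rw [hR.act_act_reverse e.w hxl] at e4
            rw [← e4, inv_inv, show g⁻¹ * (g * xGL D F (act D e.w.reverse x) u * g⁻¹) * g =
              xGL D F (act D e.w.reverse x) u by simp [mul_assoc]]
            exact S.x_mem_US (List.mem_map_of_mem hx) u
          have := hle hmem
          simpa [mul_assoc] using this
        have hmem' : v ∈ S.US (ls C ∩ ls Q) := by
          rw [← S.US_inf hR hpc hCc hQc (fun x hx => hCp x hx) fun x hx => hQp x hx]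
          exact ⟨hvC, hvQ⟩
        rw [ht] at hmem'
        have hrQ' : e.r ∉ Q := by simpa [Q] using hrQ
        exact hrQ' (her ▸ (S.coef_supp hR hCc (enum_ls hnd) (hCc.inter_closed hQc.closed) Set.inter_subset_left
          hmem' r hrC hr0).2)
  intro v hv hsq hne
  by_cases hv1 : v = 1
  · subst hv1
    rw [mul_one] at hne ⊢
    rcases hfus with hnil | hf
    · rw [List.isEmpty_iff.1 hnil] at hne
      simp [E] at hne
    · obtain ⟨T, hT, g, hg, e⟩ := fuseOK_spec (F := F) hS hR hf
      exact ⟨T, hT, g, hg, e⟩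
  · exact hgo n.chain n.psi hchain (fun r h => h) (fun v hv _ h _ => absurd hv h) v hv hsq hv1 hne

include hS hR in
/-- Soundness of the node table. -/
theorem allOK_spec [Fintype F] {ns : List (Node D.rank)} (h : allOK D tgts ns = true) :
    ∀ c ∈ ns, ∀ v ∈ (glSys hS).US (ls c.psi), v * v = 1 → E F c.A * v ≠ 1 → Conj F tgts (E F c.A * v) := by
  induction ns with
  | nil => simp
  | cons n t ih =>
    simp only [allOK, Bool.and_eq_true] at h
    intro c hc
    rcases List.mem_cons.1 hc with rfl | hc
    · exact node_spec hS hR tgts h.1 (ih h.2)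
    · exact ih h.2 c hc

end Cfsg.Agent.InvolFour
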